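import Cfsg.Agent.H140.TL.Levi

/-!
# S2452, `Ω_(2n+1)(q)`, `q` odd, `n` even (helper781): interface

`R1 Q g` : the form `β(x, y) = polar Q (g x) y` has rank at most `1` on every totally singular plane.
-/

set_option autoImplicit false

namespace Cfsg.Agent.H781.TW

open QuadraticMap Cfsg.Agent.LieClassical.OrthCore Cfsg.Agent.LieClassical.OrthTrans

/-- rank at most `1` -/
def R1 {F V : Type*} [Field F] [AddCommGroup V] [Module F V] (Q : QuadraticForm F V) (g : V ≃ₗ[F] V) : Prop :=
  ∀ x y : V, Q x = 0 → Q y = 0 → polar Q x y = 0 →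
    polar Q (g x) x * polar Q (g y) y = polar Q (g x) y * polar Q (g y) x

end Cfsg.Agent.H781.TW
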