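import Cfsg.Agent.H962.PP.Conj
import Cfsg.Agent.H140.TC.Engine

/-!
# S2452, `Ω_(2n+1)(q)`, `q` odd, `n` even (helper781): factorisations with a prescribed fixed vector
-/

set_option autoImplicit false
set_option linter.unusedSectionVars false

namespace Cfsg.Agent.H781.TW

open Matrix Polynomial Module Cfsg.Agent.H962.PP

variable {F : Type*} [Field F] {k : ℕ}

/-- **Hessenberg form with a prescribed first vector** -/
theorem exists_hess_row (A : Matrix (Fin (k + 2)) (Fin (k + 2)) F) {v0 : Fin (k + 2) → F}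
    (hvA : v0 ᵥ* A ∉ Submodule.span F {v0}) :
    ∃ (R L : Matrix (Fin (k + 2)) (Fin (k + 2)) F), IsUnit R.det ∧ R * A = L * R ∧ LH L ∧
      L 0 1 ≠ 0 ∧ R 0 = v0 := by
  have hv0 : v0 ≠ 0 := by
    rintro rfl
    apply hvA
    rw [zero_vecMul]
    exact Submodule.zero_mem _
  obtain ⟨a, ha⟩ : ∃ a : (Fin (k + 2) → F) →ₗ[F] (Fin (k + 2) → F), a = A.vecMulLinear := ⟨_, rfl⟩
  have ha' : ∀ v, a v = v ᵥ* A := fun v => by rw [ha, Matrix.vecMulLinear_apply]
  have hfin : finrank F (Fin (k + 2) → F) = k + 2 := by simp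
  have hli := st_indep a v0 hv0 (k + 2) (by rw [hfin])
  let b : Basis (Fin (k + 2)) F (Fin (k + 2) → F) :=
    basisOfLinearIndependentOfCardEqFinrank hli (by simp)
  have hb : ∀ i, b i = (st a v0 i).2 := fun i => by
    simp [b]
  let R : Matrix (Fin (k + 2)) (Fin (k + 2)) F := Matrix.of fun i => b i
  let L : Matrix (Fin (k + 2)) (Fin (k + 2)) F := Matrix.of fun i j => b.repr (a (b i)) j
  have hRL : R * A = L * R := by
    ext i j
    have h1 : (R * A) i = a (b i) := by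
      rw [ha']; rfl
    have h2 : (L * R) i = a (b i) := by
      rw [← b.sum_repr (a (b i))]
      ext l
      rw [Matrix.mul_apply, Finset.sum_apply]
      exact Finset.sum_congr rfl fun m _ => rfl
    rw [h1, h2]
  have hR : IsUnit R.det := by
    rw [← Matrix.isUnit_iff_isUnit_det, ← Matrix.linearIndependent_rows_iff_isUnit]
    exact b.linearIndependent
  have hmemspan : ∀ (n : ℕ) (v : Fin (k + 2) → F), v ∈ (st a v0 n).1 →
      ∀ j : Fin (k + 2), n ≤ j → b.repr v j = 0 := by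
    intro n v hv j hj
    rw [st_one] at hv
    refine Submodule.span_induction (p := fun v _ => b.repr v j = 0) ?_ ?_ ?_ ?_ hv
    · rintro _ ⟨i, rfl⟩
      have hi : (i : ℕ) < k + 2 := by have := i.2; have := j.2; omega
      have h3 : (st a v0 i).2 = b ⟨i, hi⟩ := (hb ⟨i, hi⟩).symm
      simp only
      rw [h3, b.repr_self, Finsupp.single_eq_of_ne]
      intro h
      rw [h] at hj
      simp only at hj
      have := i.2
      omega
    · simp
    · intro x y _ _ hx hy; rw [map_add, Finsupp.add_apply, hx, hy, add_zero]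
    · intro c x _ hx; rw [map_smul, Finsupp.smul_apply, hx, smul_zero]
  have h0 : b 0 = v0 := by rw [hb]; rfl
  refine ⟨R, L, hR, hRL, ?_, ?_, h0⟩
  · intro i j hij
    change b.repr (a (b i)) j = 0
    apply hmemspan ((i : ℕ) + 2)
    · rw [hb]; exact st_map a v0 i
    · omega
  · change b.repr (a (b 0)) 1 ≠ 0
    have h1 : b 1 = a v0 := by
      rw [hb]
      change (st a v0 (0 + 1)).2 = a v0
      rw [st]
      simp only
      rw [if_pos]
      · rfl
      · change a v0 ∉ ⊥ ⊔ Submodule.span F {v0}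
        rw [bot_sup_eq, ha']
        exact hvA
    rw [h0, ← h1, b.repr_self]
    simp

/-- product theorem, the right factor has a prescribed left eigenvector -/
theorem exists_mul_row (A : Matrix (Fin (k + 2)) (Fin (k + 2)) F) {v0 : Fin (k + 2) → F}
    (hvA : v0 ᵥ* A ∉ Submodule.span F {v0}) (X₀ : Matrix (Fin (k + 2)) (Fin (k + 2)) F)
    (hX : Cyc X₀) (hXd : X₀.det ≠ 0) (B₀ : Matrix (Fin (k + 1)) (Fin (k + 1)) F) (hB : Cyc B₀)
    (hBd : B₀.det ≠ 0) (c : F) (hc0 : c ≠ 0) (hc : B₀.charpoly.eval c ≠ 0)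
    (hdet : A.det = X₀.det * (c * B₀.det)) :
    ∃ P Q : Matrix (Fin (k + 2)) (Fin (k + 2)) F, IsUnit P.det ∧ IsUnit Q.det ∧
      A = (P * X₀ * P⁻¹) * (Q * blk c B₀ * Q⁻¹) ∧ v0 ᵥ* (Q * blk c B₀ * Q⁻¹) = c • v0 := by
  have hAd : A.det ≠ 0 := by rw [hdet]; exact mul_ne_zero hXd (mul_ne_zero hc0 hBd)
  obtain ⟨R, L, hR, hRL, hL, hL01, hR0⟩ := exists_hess_row A hvA
  have hRR : R⁻¹ * R = 1 := Matrix.nonsing_inv_mul _ hR
  have hRR' : R * R⁻¹ = 1 := Matrix.mul_nonsing_inv _ hR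
  have hLdet : L.det = A.det := by
    have h1 : R.det * A.det = L.det * R.det := by rw [← det_mul, ← det_mul, hRL]
    rw [mul_comm L.det] at h1
    exact (mul_left_cancel₀ hR.ne_zero h1).symm
  obtain ⟨x, y, hxy, hxp, hxm, hy0, hyc, hyf, hym⟩ :=
    hess hL (by rw [hLdet]; exact hAd) hL01 X₀.charpoly_monic
      (by rw [X₀.charpoly_natDegree_eq_dim, Fintype.card_fin]) (det_ne_zero_iff.mp hXd)
      B₀.charpoly_monic (by rw [B₀.charpoly_natDegree_eq_dim, Fintype.card_fin])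
      (det_ne_zero_iff.mp hBd)
  have hdx : x.det = X₀.det := by
    rw [Matrix.det_eq_sign_charpoly_coeff, Matrix.det_eq_sign_charpoly_coeff, hxp]
  have hdy : (y.submatrix Fin.succ Fin.succ).det = B₀.det := by
    rw [Matrix.det_eq_sign_charpoly_coeff, Matrix.det_eq_sign_charpoly_coeff, hyf]
  have hdy' : y.det = y 0 0 * B₀.det := by
    have h1 : y.det = (blk (y 0 0) (y.submatrix Fin.succ Fin.succ)).det := by
      rw [Matrix.det_eq_sign_charpoly_coeff, Matrix.det_eq_sign_charpoly_coeff,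
        charpoly_of_row y hy0, blk_charpoly]
    rw [h1, blk_det, hdy]
  have hcy : y 0 0 = c := by
    have h1 : x.det * y.det = A.det := by rw [← det_mul, hxy, hLdet]
    rw [hdx, hdy', hdet] at h1
    have h2 := mul_left_cancel₀ hXd h1
    exact mul_right_cancel₀ hBd h2
  have hyCyc : Cyc y := cyc_of_row hy0 hym (by rw [hyf, hcy]; exact hc)
  obtain ⟨P, hP, hPx⟩ := conj_of_cyc hX hxm hxp.symm
  obtain ⟨Q, hQ, hQy⟩ := conj_of_cyc (cyc_blk hB hc) hyCyc (by
    rw [charpoly_of_row y hy0, blk_charpoly, hyf, hcy])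
  have hsplit : A = (R⁻¹ * x * R) * (R⁻¹ * y * R) := by
    have h1 : R⁻¹ * x * R * (R⁻¹ * y * R) = R⁻¹ * x * (R * R⁻¹) * y * R := by
      simp only [mul_assoc]
    rw [h1, hRR', mul_one, mul_assoc (R⁻¹), hxy, mul_assoc, ← hRL, ← mul_assoc, hRR, one_mul]
  have hRinv : IsUnit (R⁻¹).det := by
    rw [Matrix.det_nonsing_inv]; exact hR.ringInverse
  have hRi : R⁻¹⁻¹ = R := Matrix.nonsing_inv_nonsing_inv _ hR
  have e1 : R⁻¹ * P * X₀ * (R⁻¹ * P)⁻¹ = R⁻¹ * x * R := by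
    rw [Matrix.mul_inv_rev, hRi, hPx]; simp only [mul_assoc]
  have e2 : R⁻¹ * Q * blk c B₀ * (R⁻¹ * Q)⁻¹ = R⁻¹ * y * R := by
    rw [Matrix.mul_inv_rev, hRi, hQy]; simp only [mul_assoc]
  refine ⟨R⁻¹ * P, R⁻¹ * Q, by rw [det_mul]; exact hRinv.mul hP, by rw [det_mul]; exact hRinv.mul hQ, ?_, ?_⟩
  · rw [e1, e2]
    exact hsplit
  · rw [e2]
    have h3 : v0 ᵥ* R⁻¹ = Pi.single 0 1 := by
      have h4 : v0 = (Pi.single 0 1 : Fin (k + 2) → F) ᵥ* R := by
        rw [single_one_vecMul, ← hR0]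
        rfl
      rw [h4, vecMul_vecMul, hRR', vecMul_one]
    have h5 : (Pi.single 0 1 : Fin (k + 2) → F) ᵥ* y = c • Pi.single 0 1 := by
      rw [single_one_vecMul]
      ext i
      refine Fin.cases ?_ (fun j => ?_) i
      · simp [hcy]
      · simp [hy0, (Fin.succ_ne_zero _)]
    rw [← vecMul_vecMul, ← vecMul_vecMul, h3, h5, smul_vecMul, single_one_vecMul]
    have h6 : R.row 0 = R 0 := rfl
    rw [h6, hR0]

theorem blk_transpose' {m : ℕ} (c : F) (B : Matrix (Fin m) (Fin m) F) : (blk c B)ᵀ = blk c Bᵀ := by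
  ext i j
  refine Fin.cases ?_ (fun i' => ?_) i <;> refine Fin.cases ?_ (fun j' => ?_) j <;> simp

/-- **product theorem, the left factor has a prescribed eigenvector** -/
theorem exists_mul_vec (A : Matrix (Fin (k + 2)) (Fin (k + 2)) F) {m : Fin (k + 2) → F}
    (hm : A *ᵥ m ∉ Submodule.span F {m}) (c : F) (B : Matrix (Fin (k + 1)) (Fin (k + 1)) F)
    (hB' : Cyc Bᵀ) (hBd : B.det ≠ 0) (hc0 : c ≠ 0) (hc : B.charpoly.eval c ≠ 0)
    (Y₀ : Matrix (Fin (k + 2)) (Fin (k + 2)) F) (hY' : Cyc Y₀ᵀ) (hYd : Y₀.det ≠ 0)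
    (hdet : A.det = (c * B.det) * Y₀.det) :
    ∃ P R : Matrix (Fin (k + 2)) (Fin (k + 2)) F, IsUnit P.det ∧ IsUnit R.det ∧
      A = (P * blk c B * P⁻¹) * (R * Y₀ * R⁻¹) ∧ (P * blk c B * P⁻¹) *ᵥ m = c • m := by
  obtain ⟨P, Q, hP, hQ, hA, hv⟩ := exists_mul_row Aᵀ (v0 := m) (by rwa [vecMul_transpose]) Y₀ᵀ hY'
    (by rwa [det_transpose]) Bᵀ hB' (by rwa [det_transpose]) c hc0 (by rwa [charpoly_transpose])
    (by rw [det_transpose, det_transpose, det_transpose, hdet]; ring)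
  have hQt : IsUnit (Q⁻¹)ᵀ.det := by
    rw [det_transpose, Matrix.det_nonsing_inv]; exact hQ.ringInverse
  have hPt : IsUnit (P⁻¹)ᵀ.det := by
    rw [det_transpose, Matrix.det_nonsing_inv]; exact hP.ringInverse
  have e0 : ∀ M : Matrix (Fin (k + 2)) (Fin (k + 2)) F, IsUnit M.det → ((M⁻¹)ᵀ)⁻¹ = Mᵀ := by
    intro M hM
    rw [transpose_nonsing_inv, Matrix.nonsing_inv_nonsing_inv _ (by rwa [det_transpose])]
  have e1 : (Q⁻¹)ᵀ * blk c B * ((Q⁻¹)ᵀ)⁻¹ = (Q * blk c Bᵀ * Q⁻¹)ᵀ := by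
    rw [e0 Q hQ, transpose_mul, transpose_mul, blk_transpose', transpose_transpose]
    simp only [mul_assoc]
  have e2 : (P⁻¹)ᵀ * Y₀ * ((P⁻¹)ᵀ)⁻¹ = (P * Y₀ᵀ * P⁻¹)ᵀ := by
    rw [e0 P hP, transpose_mul, transpose_mul, transpose_transpose]
    simp only [mul_assoc]
  refine ⟨(Q⁻¹)ᵀ, (P⁻¹)ᵀ, hQt, hPt, ?_, ?_⟩
  · rw [e1, e2, ← transpose_mul, ← hA, transpose_transpose]
  · rw [e1, mulVec_transpose, hv]

end Cfsg.Agent.H781.TW
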